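import Cfsg.Agent.MQ.UD.Two
import Mathlib.Algebra.Module.LinearMap.Polynomial
import Mathlib.RingTheory.MvPolynomial.Homogeneous
import Mathlib.RingTheory.Invariant.Basic
import Mathlib.RingTheory.FiniteType
import Mathlib.RingTheory.PowerSeries.WellKnown
import Mathlib.LinearAlgebra.Trace
import Mathlib.GroupTheory.CosetCover
import Cfsg.Agent.Prune
set_option linter.all false
prune_inst 0x7f00000000000000000000000000000000000000000000000000000000000000000000000000000000000000000000000000000000000000000000000000000000000000000000000000000000000000003fffffffffffffffffffffffffffbeffbdffffffff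
open scoped Cfsg.Agent.FastGrp

-- part: MO/Sp/Free
section
/-!
# MO/Sp: the polynomial ring is free over the invariants of a reflection group (helper69)
-/

set_option autoImplicit false
set_option linter.unusedSectionVars false

namespace Cfsg.Agent.MO.Sp

open Matrix MvPolynomial

variable {K : Type} [Field K] {n : Type} [Fintype n] [DecidableEq n] {W : Type} [Group W]

/-- linear substitution -/
noncomputable def sub (A : Matrix n n K) : MvPolynomial n K →ₐ[K] MvPolynomial n K := bind₁ A.toMvPolynomial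

theorem sub_X (A : Matrix n n K) (i : n) : sub A (X i) = A.toMvPolynomial i := bind₁_X_right _ _

theorem sub_C (A : Matrix n n K) (c : K) : sub A (C c) = C c := bind₁_C_right _ _

theorem sub_mul (A B : Matrix n n K) (f : MvPolynomial n K) : sub (A * B) f = sub B (sub A f) := by
  have : sub (A * B) = (sub B).comp (sub A) := algHom_ext fun i => by
    rw [AlgHom.comp_apply, sub_X, sub_X, toMvPolynomial_mul, sub]
  rw [this, AlgHom.comp_apply]

theorem sub_one (f : MvPolynomial n K) : sub (1 : Matrix n n K) f = f := by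
  rw [sub, toMvPolynomial_one, bind₁_X_left, AlgHom.id_apply]

theorem eval_sub (A : Matrix n n K) (v : n → K) (f : MvPolynomial n K) : eval v (sub A f) = eval (A *ᵥ v) f := by
  have : (eval v).comp (sub A).toRingHom = eval (A *ᵥ v) := ringHom_ext (fun c => by simp) fun i => by
    simp [sub_X, toMvPolynomial_eval_eq_apply]
  exact DFunLike.congr_fun this f

theorem cc_sub (A : Matrix n n K) (f : MvPolynomial n K) : constantCoeff (sub A f) = constantCoeff f := by
  rw [← eval_zero, eval_sub, mulVec_zero]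

theorem sub_hom (A : Matrix n n K) {f : MvPolynomial n K} {k : ℕ} (h : f.IsHomogeneous k) : (sub A f).IsHomogeneous k := by
  have := h.aeval A.toMvPolynomial A.toMvPolynomial_isHomogeneous
  rwa [one_mul] at this

/-- homogeneous components -/
noncomputable abbrev hc (k : ℕ) : MvPolynomial n K →ₗ[K] MvPolynomial n K := homogeneousComponent k

theorem hc_sub (A : Matrix n n K) (k : ℕ) (f : MvPolynomial n K) : hc k (sub A f) = sub A (hc k f) := by
  induction f using MvPolynomial.induction_on' with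
  | monomial d c =>
    rw [homogeneousComponent_of_mem (isHomogeneous_monomial c rfl),
      homogeneousComponent_of_mem (sub_hom A (isHomogeneous_monomial c rfl))]
    split_ifs
    · rfl
    · rw [map_zero]
  | add p q hp hq => rw [map_add, map_add, map_add, map_add, hp, hq]

theorem hc_mul {c : MvPolynomial n K} {d : ℕ} (h : c.IsHomogeneous d) (k : ℕ) (r : MvPolynomial n K) :
    hc k (r * c) = if d ≤ k then hc (k - d) r * c else 0 := by
  induction r using MvPolynomial.induction_on' with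
  | monomial m a =>
    rw [homogeneousComponent_of_mem ((isHomogeneous_monomial a rfl).mul h),
      homogeneousComponent_of_mem (isHomogeneous_monomial a rfl)]
    by_cases h1 : k = m.degree + d
    · rw [if_pos h1, if_pos (by omega), if_pos (by omega)]
    · rw [if_neg h1]
      split_ifs with h2 h3
      · omega
      · rw [zero_mul]
      · rfl
  | add p q hp hq =>
    rw [add_mul, map_add, hp, hq]
    split_ifs
    · rw [map_add, add_mul]
    · rw [add_zero]

theorem eq_zero_of_hc {f : MvPolynomial n K} (h : ∀ k, hc k f = 0) : f = 0 := by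
  rw [← sum_homogeneousComponent f]
  exact Finset.sum_eq_zero fun k _ => h k

variable (ρ : W →* Matrix n n K)

/-- the invariants -/
def Inv : Subalgebra K (MvPolynomial n K) where
  carrier := {f | ∀ w, sub (ρ w) f = f}
  mul_mem' := fun {a b} ha hb w => by rw [map_mul, ha w, hb w]
  add_mem' := fun {a b} ha hb w => by rw [map_add, ha w, hb w]
  algebraMap_mem' := fun c w => (sub (ρ w)).commutes c

/-- the ideal of the invariants of positive degree -/
noncomputable def Id : Ideal (MvPolynomial n K) := Ideal.span {f | f ∈ Inv ρ ∧ ∃ a, 0 < a ∧ f.IsHomogeneous a}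

variable {ρ}

theorem hc_mem {f : MvPolynomial n K} (h : f ∈ Inv ρ) (k : ℕ) : hc k f ∈ Inv ρ := fun w => by rw [← hc_sub, h w]

theorem sub_cc_mem {f : MvPolynomial n K} (h : f ∈ Inv ρ) : f - C (constantCoeff f) ∈ Id ρ := by
  have h1 := sum_homogeneousComponent f
  rw [Finset.sum_range_succ', homogeneousComponent_zero] at h1
  rw [constantCoeff_eq, ← eq_sub_of_add_eq h1]
  exact Ideal.sum_mem _ fun i _ =>
    Ideal.subset_span ⟨hc_mem h _, i + 1, i.succ_pos, homogeneousComponent_isHomogeneous _ _⟩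

theorem sub_mem_Id {A : Matrix n n K} (hA : ∀ f ∈ Inv ρ, sub A f ∈ Inv ρ) {x : MvPolynomial n K} (h : x ∈ Id ρ) :
    sub A x ∈ Id ρ := by
  have : Id ρ ≤ (Id ρ).comap (sub A) := Ideal.span_le.2 fun f ⟨h1, a, h2, h3⟩ =>
    Ideal.subset_span ⟨hA f h1, a, h2, sub_hom A h3⟩
  exact this h

theorem sub_rho_mem_Id (w : W) {x : MvPolynomial n K} (h : x ∈ Id ρ) : sub (ρ w) x ∈ Id ρ :=
  sub_mem_Id (fun f hf => by rwa [hf w]) h

theorem rf_dvd (a b : n → K) (x : MvPolynomial n K) :
    (∑ j, monomial (.single j 1) (b j) : MvPolynomial n K) ∣ x - sub (1 - vecMulVec a b) x := by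
  induction x using MvPolynomial.induction_on with
  | C c => rw [sub_C, sub_self]; exact dvd_zero _
  | add p q hp hq => rw [map_add, add_sub_add_comm]; exact dvd_add hp hq
  | mul_X p i hp =>
    have h1 : sub (1 - vecMulVec a b) (X i) = X i - C (a i) * ∑ j, monomial (.single j 1) (b j) := by
      rw [eq_sub_iff_add_eq, sub_X]
      have h2 : (vecMulVec a b).toMvPolynomial i = C (a i) * ∑ j, monomial (.single j 1) (b j) := by
        simp only [toMvPolynomial, vecMulVec_apply, Finset.mul_sum, C_mul_monomial]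
      rw [← h2, ← Pi.add_apply (toMvPolynomial _), ← toMvPolynomial_add, sub_add_cancel, toMvPolynomial_one]
    obtain ⟨y, hy⟩ := hp
    rw [map_mul, h1]
    exact ⟨y * X i + sub (1 - vecMulVec a b) p * C (a i), by linear_combination X i * hy⟩

variable [Finite W] [CharZero K]

variable (ρ) in
/-- the mean value -/
noncomputable def av (f : MvPolynomial n K) : MvPolynomial n K := C (Nat.card W : K)⁻¹ * ∑ᶠ w, sub (ρ w) f

theorem av_eq [Fintype W] (f : MvPolynomial n K) : av ρ f = C (Nat.card W : K)⁻¹ * ∑ w, sub (ρ w) f := by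
  rw [av, finsum_eq_sum_of_fintype]

theorem card_ne : (Nat.card W : K) ≠ 0 := Nat.cast_ne_zero.2 Nat.card_pos.ne'

theorem av_mem (f : MvPolynomial n K) : av ρ f ∈ Inv ρ := fun w => by
  have := Fintype.ofFinite W
  rw [av_eq, map_mul, sub_C, map_sum]
  refine congrArg _ (Fintype.sum_equiv (Equiv.mulRight w) _ _ fun u => ?_)
  rw [Equiv.coe_mulRight, map_mul, sub_mul]

theorem av_mul {r : MvPolynomial n K} (h : r ∈ Inv ρ) (f : MvPolynomial n K) : av ρ (r * f) = r * av ρ f := by
  have := Fintype.ofFinite W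
  rw [av_eq, av_eq, mul_left_comm, Finset.mul_sum Finset.univ _ r]
  exact congrArg _ (Finset.sum_congr rfl fun w _ => by rw [map_mul, h w])

theorem C_card_sum [Fintype W] (f : MvPolynomial n K) : C (Nat.card W : K)⁻¹ * ∑ _w : W, f = f := by
  rw [Finset.sum_const, Finset.card_univ, ← Nat.card_eq_fintype_card, nsmul_eq_mul, ← mul_assoc, ← map_natCast C, ← map_mul,
    inv_mul_cancel₀ card_ne, map_one, one_mul]

theorem av_of_mem {r : MvPolynomial n K} (h : r ∈ Inv ρ) : av ρ r = r := by
  have := Fintype.ofFinite W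
  rw [av_eq, Finset.sum_congr rfl fun w _ => h w, C_card_sum]

theorem av_sum {J : Type} (s : Finset J) (f : J → MvPolynomial n K) : av ρ (∑ j ∈ s, f j) = ∑ j ∈ s, av ρ (f j) := by
  have := Fintype.ofFinite W
  simp only [av_eq, map_sum]
  rw [Finset.sum_comm, Finset.mul_sum]

theorem av_hom {f : MvPolynomial n K} {k : ℕ} (h : f.IsHomogeneous k) : (av ρ f).IsHomogeneous k := by
  have := Fintype.ofFinite W
  rw [av_eq]
  exact (IsHomogeneous.sum _ _ _ fun w _ => sub_hom _ h).C_mul _

theorem sub_av_mem {g : MvPolynomial n K} (h : ∀ w, g - sub (ρ w) g ∈ Id ρ) : g - av ρ g ∈ Id ρ := by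
  have := Fintype.ofFinite W
  rw [av_eq]
  nth_rewrite 1 [← C_card_sum (W := W) g]
  rw [← mul_sub, ← Finset.sum_sub_distrib]
  exact Ideal.mul_mem_left _ _ (Ideal.sum_mem _ fun w _ => h w)

/-- Chevalley's lemma -/
theorem key (hg : Subgroup.closure {s | IsRf (ρ s)} = ⊤) {J : Type} (s : Finset J) {r : J → MvPolynomial n K}
    (hr : ∀ j, r j ∈ Inv ρ) {f : MvPolynomial n K} (hf : f ∈ Inv ρ)
    (hn : ¬ ∃ h : J → MvPolynomial n K, (∀ j, h j ∈ Inv ρ) ∧ f = ∑ j ∈ s, r j * h j) (k : ℕ) :
    ∀ g : MvPolynomial n K, g.IsHomogeneous k → (∃ x : J → MvPolynomial n K, f * g = ∑ j ∈ s, r j * x j) → g ∈ Id ρ := by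
  induction k with
  | zero =>
    rintro g h0 ⟨x, hx⟩
    have hC : g = C (coeff 0 g) := by rw [← homogeneousComponent_zero, homogeneousComponent_eq_self h0]
    by_cases h1 : coeff 0 g = 0
    · rw [hC, h1, map_zero]; exact Ideal.zero_mem _
    · refine (hn ⟨fun j => av ρ (x j) * C (coeff 0 g)⁻¹, fun j => mul_mem (av_mem _) ((Inv ρ).algebraMap_mem _), ?_⟩).elim
      have h2 := congrArg (av ρ) hx
      rw [av_sum, av_mul hf, hC, av_of_mem (r := C _) ((Inv ρ).algebraMap_mem _), Finset.sum_congr rfl fun j _ => av_mul (hr j) _] at h2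
      simp only [← mul_assoc]
      rw [← Finset.sum_mul, ← h2, mul_assoc, ← map_mul, mul_inv_cancel₀ h1, map_one, mul_one]
  | succ k ih =>
    rintro g h0 ⟨x, hx⟩
    have h1 : ∀ w, g - sub (ρ w) g ∈ Id ρ := fun w => by
      have hw : w ∈ Subgroup.closure {s | IsRf (ρ s)} := hg ▸ Subgroup.mem_top w
      induction hw using Subgroup.closure_induction with
      | mem t ht =>
        obtain ⟨a, b, hab⟩ := ht
        have hd := fun y => rf_dvd a b y
        rw [← hab] at hd
        have hl : (∑ j, monomial (.single j 1) (b j) : MvPolynomial n K).IsHomogeneous 1 :=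
          IsHomogeneous.sum _ _ _ fun j _ => isHomogeneous_monomial _ (by simp)
        generalize (∑ j, monomial (.single j 1) (b j) : MvPolynomial n K) = l at hd hl
        choose y hy using hd
        by_cases h2 : l = 0
        · rw [hy, h2, zero_mul]; exact Ideal.zero_mem _
        have h3 : g - sub (ρ t) g = l * hc k (y g) := by
          rw [← homogeneousComponent_eq_self (h0.sub (sub_hom (ρ t) h0)), hy, mul_comm, hc_mul hl, if_pos (by omega),
            mul_comm, Nat.add_sub_cancel]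
        rw [h3]
        refine Ideal.mul_mem_left _ _ (ih _ (homogeneousComponent_isHomogeneous _ _) ⟨fun j => y (x j), ?_⟩)
        refine mul_left_cancel₀ h2 ?_
        have h4 := congrArg (sub (ρ t)) hx
        rw [map_mul, hf t, map_sum, Finset.sum_congr rfl fun j _ => by rw [map_mul, hr j t]] at h4
        rw [mul_left_comm, ← h3, mul_sub, hx, h4, ← Finset.sum_sub_distrib, Finset.mul_sum]
        exact Finset.sum_congr rfl fun j _ => by rw [← mul_sub, hy, mul_left_comm]
      | one => rw [map_one, sub_one, sub_self]; exact Ideal.zero_mem _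
      | mul a b _ _ ha hb =>
        have := add_mem hb (sub_rho_mem_Id b ha)
        rwa [map_sub, sub_add_sub_cancel, ← sub_mul, ← map_mul] at this
      | inv a _ ha =>
        have := neg_mem (sub_rho_mem_Id a⁻¹ ha)
        rwa [map_sub, neg_sub, ← sub_mul, ← map_mul, mul_inv_cancel, map_one, sub_one] at this
    have := add_mem (sub_av_mem h1) (Ideal.subset_span ⟨av_mem g, k + 1, k.succ_pos, av_hom h0⟩ : av ρ g ∈ Id ρ)
    rwa [sub_add_cancel] at this

theorem indep (hg : Subgroup.closure {s | IsRf (ρ s)} = ⊤) {J : Type} (d : J → ℕ) (k : ℕ) {r : J → MvPolynomial n K}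
    (hr : ∀ j, r j ∈ Inv ρ) (hr1 : ∀ j, (r j).IsHomogeneous (k - d j)) (hr2 : ∀ j, k < d j → r j = 0) (s : Finset J) :
    ∀ c : J → MvPolynomial n K, (∀ j, (c j).IsHomogeneous (d j)) →
      (∀ a : J → K, ∑ j ∈ s, C (a j) * c j ∈ Id ρ → ∀ j ∈ s, a j = 0) → ∑ j ∈ s, r j * c j = 0 → ∀ j ∈ s, r j = 0 := by
  classical
  induction s using Finset.induction_on with
  | empty => exact fun _ _ _ _ _ h => absurd h (Finset.notMem_empty _)
  | insert i s hi ih =>
    intro c hc1 hc2 h0
    rw [Finset.sum_insert hi] at h0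
    have h1 : ∃ h : J → MvPolynomial n K, (∀ j, h j ∈ Inv ρ) ∧ r i = ∑ j ∈ s, r j * h j := by
      by_contra hn
      have h2 := key hg s hr (hr i) hn _ _ (hc1 i) ⟨fun j => - c j, by
        simp only [mul_neg, Finset.sum_neg_distrib]
        exact eq_neg_of_add_eq_zero_left h0⟩
      have h3 := hc2 (Pi.single i 1) (by
        rw [Finset.sum_insert hi, Finset.sum_eq_zero fun j hj => by
          rw [Pi.single_eq_of_ne (by rintro rfl; exact hi hj), map_zero, zero_mul], Pi.single_eq_same, map_one, one_mul, add_zero]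
        exact h2) i (Finset.mem_insert_self _ _)
      rw [Pi.single_eq_same] at h3
      exact one_ne_zero h3
    obtain ⟨h, hh1, hh2⟩ := h1
    have h2 : ∃ h' : J → MvPolynomial n K, (∀ j, h' j ∈ Inv ρ) ∧ (∀ j, (h' j * c i).IsHomogeneous (d j)) ∧
        r i = ∑ j ∈ s, r j * h' j := by
      by_cases h3 : k < d i
      · exact ⟨0, fun _ => zero_mem _, fun j => by rw [Pi.zero_apply, zero_mul]; exact isHomogeneous_zero _ _ _,
          by simp [hr2 i h3]⟩
      refine ⟨fun j => if d i ≤ d j then hc (d j - d i) (h j) else 0, fun j => ?_, fun j => ?_, ?_⟩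
      · beta_reduce
        split_ifs
        · exact hc_mem (hh1 j) _
        · exact zero_mem _
      · beta_reduce
        split_ifs with h4
        · have := (homogeneousComponent_isHomogeneous (d j - d i) (h j)).mul (hc1 i)
          rwa [Nat.sub_add_cancel h4] at this
        · rw [zero_mul]; exact isHomogeneous_zero _ _ _
      · rw [← homogeneousComponent_eq_self (hr1 i), hh2, map_sum]
        refine Finset.sum_congr rfl fun j _ => ?_
        by_cases h4 : k < d j
        · rw [hr2 j h4, zero_mul, zero_mul, map_zero]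
        rw [mul_comm, hc_mul (hr1 j)]
        beta_reduce
        by_cases h5 : d i ≤ d j
        · rw [if_pos h5, if_pos (by omega), mul_comm, show k - d i - (k - d j) = d j - d i by omega]
        · rw [if_neg h5, if_neg (by omega), mul_zero]
    obtain ⟨h', hh3, hh4, hh5⟩ := h2
    have h3 := ih (fun j => c j + h' j * c i) (fun j => (hc1 j).add (hh4 j)) (fun a ha j hj => ?_) ?_
    · intro j hj
      rcases Finset.mem_insert.1 hj with rfl | hj
      · rw [hh5]; exact Finset.sum_eq_zero fun j hj => by rw [h3 j hj, zero_mul]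
      · exact h3 j hj
    · have h4 := hc2 (Function.update a i (∑ j ∈ s, a j * constantCoeff (h' j))) ?_ j (Finset.mem_insert_of_mem hj)
      · rwa [Function.update_of_ne (by rintro rfl; exact hi hj)] at h4
      have h5 : ∑ j ∈ s, C (a j) * ((h' j - C (constantCoeff (h' j))) * c i) ∈ Id ρ :=
        Ideal.sum_mem _ fun j _ => Ideal.mul_mem_left _ _ (Ideal.mul_mem_right _ _ (sub_cc_mem (hh3 j)))
      convert sub_mem ha h5 using 1
      rw [Finset.sum_insert hi, Function.update_self, map_sum, Finset.sum_mul, ← Finset.sum_add_distrib,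
        ← Finset.sum_sub_distrib]
      refine Finset.sum_congr rfl fun j hj => ?_
      rw [Function.update_of_ne (by rintro rfl; exact hi hj), map_mul]
      ring
    · rw [← h0, hh5, Finset.sum_mul, ← Finset.sum_add_distrib]
      exact Finset.sum_congr rfl fun j _ => by ring

variable (ρ) in
/-- the action on polynomials -/
@[reducible] noncomputable def act : MulSemiringAction W (MvPolynomial n K) where
  smul w f := sub (ρ w⁻¹) f
  one_smul f := by
    change sub (ρ 1⁻¹) f = f
    rw [inv_one, map_one, sub_one]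
  mul_smul a b f := by
    change sub (ρ (a * b)⁻¹) f = sub (ρ a⁻¹) (sub (ρ b⁻¹) f)
    rw [_root_.mul_inv_rev, map_mul, sub_mul]
  smul_zero _ := map_zero _
  smul_add _ := map_add _
  smul_one _ := map_one _
  smul_mul _ := map_mul _

theorem isInv : letI := act ρ; Algebra.IsInvariant (Inv ρ) (MvPolynomial n K) W :=
  letI := act ρ
  ⟨fun b hb => ⟨⟨b, fun w => by
    have : sub (ρ w⁻¹⁻¹) b = b := hb w⁻¹
    rwa [inv_inv] at this⟩, rfl⟩⟩

theorem finite_inv : Module.Finite (Inv ρ) (MvPolynomial n K) := by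
  let := act ρ
  have := isInv (ρ := ρ)
  have := Algebra.IsInvariant.isIntegral (Inv ρ) (MvPolynomial n K) W
  have := Algebra.FiniteType.of_restrictScalars_finiteType K (Inv ρ) (MvPolynomial n K)
  exact Algebra.IsIntegral.finite

/-- a maximal ideal which contains the invariants vanishing at `v` vanishes at a conjugate of `v` -/
theorem exists_conj (v : n → K) (Q : Ideal (MvPolynomial n K)) [Q.IsMaximal] (h : ∀ r ∈ Inv ρ, r - C (eval v r) ∈ Q) :
    ∃ u, ∀ f ∈ Q, eval (ρ u *ᵥ v) f = 0 := by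
  let := act ρ
  have := isInv (ρ := ρ)
  have : SMulCommClass W (Inv ρ) (MvPolynomial n K) := ⟨fun w r f => by
    change sub (ρ w⁻¹) (r.1 * f) = r.1 * sub (ρ w⁻¹) f
    rw [map_mul, r.2]⟩
  have := RingHom.ker_isPrime (eval v)
  obtain ⟨g, hg⟩ := Algebra.IsInvariant.exists_smul_of_under_eq (Inv ρ) (MvPolynomial n K) W (RingHom.ker (eval v)) Q (by
    ext r
    change eval v r.1 = 0 ↔ r.1 ∈ Q
    refine ⟨fun h1 => by simpa [h1] using h _ r.2, fun h1 => ?_⟩
    by_contra h2
    have h3 := sub_mem h1 (h _ r.2)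
    rw [sub_sub_cancel] at h3
    exact Ideal.IsMaximal.ne_top ‹_› (Ideal.eq_top_of_isUnit_mem _ h3 ((IsUnit.mk0 _ h2).map C)))
  refine ⟨g, fun f hf => ?_⟩
  rw [hg, Ideal.mem_pointwise_smul_iff_inv_smul_mem] at hf
  have h1 : eval v (sub (ρ g⁻¹⁻¹) f) = 0 := hf
  rwa [inv_inv, eval_sub] at h1

/-- **the polynomial ring has a finite basis of monomials over the invariants** -/
theorem exists_basis (hg : Subgroup.closure {s | IsRf (ρ s)} = ⊤) :
    ∃ (J : Type) (_ : Finite J) (a : J → n →₀ ℕ) (b : Module.Basis J (Inv ρ) (MvPolynomial n K)),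
      Function.Injective a ∧ ∀ j, b j = monomial (a j) 1 := by
  classical
  let π := ((Id ρ).restrictScalars K).mkQ
  obtain ⟨J, a, h1, h2, h3⟩ := exists_linearIndependent' K fun m : n →₀ ℕ => π (monomial m 1)
  have hh : ∀ j, (monomial (a j) (1 : K)).IsHomogeneous (a j).degree := fun j => isHomogeneous_monomial _ rfl
  have hI : ∀ x, π x = 0 ↔ x ∈ Id ρ := fun x => Submodule.Quotient.mk_eq_zero _
  have li : LinearIndependent (Inv ρ) fun j => (monomial (a j) 1 : MvPolynomial n K) := by
    refine linearIndependent_iff'.2 fun s r h0 j hj => Subtype.ext (eq_zero_of_hc fun m => ?_)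
    have h4 := indep hg (fun j => (a j).degree) (m + (a j).degree)
      (r := fun i => if (a i).degree ≤ m + (a j).degree then hc (m + (a j).degree - (a i).degree) (r i).1 else 0)
      (fun i => ?_) (fun i => ?_) (fun i hi => if_neg (by omega)) s _ hh (fun x hx i hi => ?_) ?_ j hj
    · simpa using h4
    · split_ifs
      · exact hc_mem (r i).2 _
      · exact zero_mem _
    · split_ifs
      · exact homogeneousComponent_isHomogeneous _ _
      · exact isHomogeneous_zero _ _ _
    · refine linearIndependent_iff'.1 h3 s x ?_ i hi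
      rw [← (hI _).2 hx, map_sum]
      exact Finset.sum_congr rfl fun j _ => by simp only [← smul_eq_C_mul, map_smul, Function.comp_apply]
    · have h5 := congrArg (hc (m + (a j).degree)) h0
      (simp only [map_zero] at h5; rewrite [map_sum] at h5)
      refine Eq.trans (Finset.sum_congr rfl fun i _ => ?_) h5
      rw [Subalgebra.smul_def, smul_eq_mul, hc_mul (hh i), ite_mul, zero_mul]
  have sp : ∀ k x, hc k x ∈ Submodule.span (Inv ρ) (Set.range fun j => (monomial (a j) 1 : MvPolynomial n K)) := by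
    intro k
    induction k using Nat.strong_induction_on with
    | _ k ih =>
    have h4 : ∀ x ∈ Id ρ, ∀ y, hc k (y * x) ∈
        Submodule.span (Inv ρ) (Set.range fun j => (monomial (a j) 1 : MvPolynomial n K)) := by
      intro x hx
      induction hx using Submodule.span_induction with
      | mem f hf =>
        obtain ⟨h5, e, h6, h7⟩ := hf
        intro y
        rw [hc_mul h7]
        split_ifs with h8
        · rw [mul_comm]
          exact Submodule.smul_mem _ (⟨f, h5⟩ : Inv ρ) (ih _ (by omega) y)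
        · exact zero_mem _
      | zero => intro y; rw [mul_zero, map_zero]; exact zero_mem _
      | add f g _ _ hf hg => intro y; rw [mul_add, map_add]; exact add_mem (hf y) (hg y)
      | smul z f _ hf => intro y; rw [smul_eq_mul, ← mul_assoc]; exact hf _
    intro x
    have h5 : π x ∈ Submodule.span K (Set.range ((fun m : n →₀ ℕ => π (monomial m 1)) ∘ a)) := by
      rw [h2, x.as_sum, map_sum]
      refine Submodule.sum_mem _ fun m _ => ?_
      rw [← mul_one (coeff m x), ← C_mul_monomial, ← smul_eq_C_mul, map_smul]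
      exact Submodule.smul_mem _ _ (Submodule.subset_span ⟨m, rfl⟩)
    obtain ⟨z, hz⟩ := Finsupp.mem_span_range_iff_exists_finsupp.1 h5
    have h6 : x - ∑ j ∈ z.support, z j • monomial (a j) 1 ∈ Id ρ := by
      rw [← hI, map_sub, ← hz, map_sum, sub_eq_zero]
      exact Finset.sum_congr rfl fun j _ => (map_smul _ _ _).symm
    have h7 := h4 _ h6 1
    rw [one_mul, map_sub, map_sum] at h7
    refine (Submodule.sub_mem_iff_left _ (Submodule.sum_mem _ fun j _ => ?_)).1 h7
    simp only [map_smul, homogeneousComponent_of_mem (hh j)]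
    refine Submodule.smul_of_tower_mem _ _ ?_
    split_ifs
    · exact Submodule.subset_span ⟨j, rfl⟩
    · exact zero_mem _
  let b := Module.Basis.mk li fun x _ => by
    rw [← sum_homogeneousComponent x]
    exact Submodule.sum_mem _ fun k _ => sp k x
  have := finite_inv (ρ := ρ)
  exact ⟨J, Module.Finite.finite_basis b, a, b, h1, fun j => Module.Basis.mk_apply _ _ j⟩

end Cfsg.Agent.MO.Sp
end

-- part: MO/Sp/Tr
section
/-!
# MO/Sp: graded traces, the representation on the coinvariants (helper69)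
-/

set_option autoImplicit false
set_option linter.unusedSectionVars false

namespace Cfsg.Agent.MO.Sp

open Matrix MvPolynomial

variable {K : Type} [Field K] {n : Type} [Fintype n] [DecidableEq n] {W : Type} [Group W]

theorem trace_dec {V U : Type} [AddCommGroup V] [Module K V] [FiniteDimensional K V] {J : Type} (s : Finset J)
    [AddCommGroup U] [Module K U] (P : J → Submodule K U) [∀ j, FiniteDimensional K (P j)] (ι : ∀ j, P j →ₗ[K] V)
    (π : ∀ j, V →ₗ[K] P j) (h : ∀ x, ∑ j ∈ s, ι j (π j x) = x) (g : V →ₗ[K] V) :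
    LinearMap.trace K V g = ∑ j ∈ s, LinearMap.trace K (P j) (π j ∘ₗ g ∘ₗ ι j) := by
  have h1 : g = ∑ j ∈ s, (g ∘ₗ ι j) ∘ₗ π j := LinearMap.ext fun x => by
    rw [LinearMap.sum_apply, ← congrArg g (h x), map_sum]
    rfl
  conv_lhs => rw [h1]
  rw [map_sum]
  exact Finset.sum_congr rfl fun j _ => LinearMap.trace_comp_comm' _ _

instance instFdHom (k : ℕ) : FiniteDimensional K (homogeneousSubmodule n K k) :=
  Module.Finite.iff_fg.2 (homogeneousSubmodule_fg n K k)

/-- the substitution on the forms of degree `k` -/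
noncomputable def subk (k : ℕ) (A : Matrix n n K) : homogeneousSubmodule n K k →ₗ[K] homogeneousSubmodule n K k :=
  (sub A).toLinearMap.restrict fun _ hf => sub_hom A hf

/-- the trace on the forms of degree `k` -/
noncomputable def tk (A : Matrix n n K) (k : ℕ) : K := LinearMap.trace K _ (subk k A)

theorem tk_mul_comm (A B : Matrix n n K) (k : ℕ) : tk (A * B) k = tk (B * A) k := by
  have h : ∀ A B : Matrix n n K, subk k (A * B) = subk k B ∘ₗ subk k A := fun A B =>
    LinearMap.ext fun x => Subtype.ext (sub_mul A B x)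
  rw [tk, tk, h, h, LinearMap.trace_comp_comm']

theorem sub_diagonal (l : n → K) (m : n →₀ ℕ) (c : K) :
    sub (diagonal l) (monomial m c) = C (∏ i, l i ^ m i) * monomial m c := by
  have h : ∀ i, (diagonal l).toMvPolynomial i = C (l i) * X i := fun i => by
    rw [toMvPolynomial, Finset.sum_eq_single i (fun j _ hj => by rw [diagonal_apply_ne' _ hj, map_zero])
      (fun h => absurd (Finset.mem_univ _) h), diagonal_apply_eq, C_mul_X_eq_monomial]
  rw [sub, bind₁_monomial, monomial_eq, Finsupp.prod, mul_left_comm]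
  simp only [h, mul_pow, Finset.prod_mul_distrib, ← map_pow, ← map_prod]
  rw [Finset.prod_subset (Finset.subset_univ _) fun i _ hi => by rw [Finsupp.notMem_support_iff.1 hi, pow_zero]]

theorem tk_diagonal (l : n → K) (k : ℕ) :
    tk (diagonal l) k = ∑ m ∈ Finset.finsuppAntidiag Finset.univ k, ∏ i, l i ^ m i := by
  have hd : ∀ m : n →₀ ℕ, m ∈ Finset.finsuppAntidiag Finset.univ k ↔ m.degree = k := fun m => by
    rw [Finset.mem_finsuppAntidiag, Finsupp.degree_eq_sum]
    simp
  rw [tk, trace_dec (Finset.finsuppAntidiag Finset.univ k) (fun _ => (⊤ : Submodule K K))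
    (fun m => ((hc k ∘ₗ monomial m) ∘ₗ Submodule.subtype _).codRestrict _ fun _ => homogeneousComponent_mem _ _)
    (fun m => (lcoeff K m ∘ₗ Submodule.subtype _).codRestrict _ fun _ => Submodule.mem_top) fun x => Subtype.ext ?_]
  · refine Finset.sum_congr rfl fun m hm => ?_
    rw [show _ ∘ₗ subk k (diagonal l) ∘ₗ _ = (∏ i, l i ^ m i) • LinearMap.id from LinearMap.ext fun c => Subtype.ext ?_,
      map_smul, LinearMap.trace_id, finrank_top, Module.finrank_self, Nat.cast_one, smul_eq_mul, mul_one]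
    change coeff m (sub (diagonal l) (hc k (monomial m c.1))) = (∏ i, l i ^ m i) * c.1
    rw [homogeneousComponent_eq_self (isHomogeneous_monomial _ ((hd m).1 hm)), sub_diagonal, coeff_C_mul, coeff_monomial,
      if_pos rfl]
  · rw [Submodule.coe_sum]
    change ∑ m ∈ _, hc k (monomial m (coeff m x.1)) = x.1
    rw [← map_sum]
    refine Eq.trans (congrArg _ ?_) (homogeneousComponent_eq_self x.2)
    refine ((as_sum x.1).trans (Finset.sum_subset (fun m hm => (hd m).2 ?_) fun m _ hm => ?_)).symm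
    · by_contra h
      exact mem_support_iff.1 hm (IsHomogeneous.coeff_eq_zero x.2 h)
    · rw [notMem_support_iff.1 hm, map_zero]

theorem molien [CharZero K] [IsAlgClosed K] {A : Matrix n n K} (h : Ss A) :
    PowerSeries.mk (tk A) * (A.charpolyRev : PowerSeries K) = 1 := by
  obtain ⟨Q, Q', l, h1, rfl⟩ := h.diag
  have h2 : PowerSeries.mk (tk (Q * (diagonal l * Q'))) = ∏ i, PowerSeries.mk fun k => l i ^ k := by
    ext k
    rw [PowerSeries.coeff_mk, tk_mul_comm, mul_assoc, h1, mul_one, tk_diagonal, PowerSeries.coeff_prod]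
    simp only [PowerSeries.coeff_mk]
  rw [h2, crev_mul_comm, mul_assoc, h1, mul_one, crev_diagonal, ← Polynomial.coeToPowerSeries.ringHom_apply, map_prod,
    ← Finset.prod_mul_distrib]
  refine Finset.prod_eq_one fun i _ => ?_
  have h3 := congrArg (PowerSeries.rescale (l i)) (PowerSeries.mk_one_mul_one_sub_eq_one K)
  rw [map_mul, map_sub, map_one, PowerSeries.rescale_X, PowerSeries.rescale_mk] at h3
  simpa using h3

variable {ρ : W →* Matrix n n K} {J : Type} [Fintype J] [DecidableEq J] {a : J → n →₀ ℕ}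
  (b : Module.Basis J (Inv ρ) (MvPolynomial n K))

/-- the matrix of a substitution on the coinvariants -/
noncomputable def am (A : Matrix n n K) : Matrix J J K := fun j j' => constantCoeff (b.repr (sub A (b j)) j').1

variable (ρ) in
/-- `A` keeps the invariants -/
def Kp (A : Matrix n n K) : Prop := ∀ f ∈ Inv ρ, sub A f ∈ Inv ρ

theorem Kp.mul {A B : Matrix n n K} (hA : Kp ρ A) (hB : Kp ρ B) : Kp ρ (A * B) := fun f hf => by
  rw [sub_mul]; exact hB _ (hA _ hf)

theorem kp_rho (w : W) : Kp ρ (ρ w) := fun f hf => by rwa [hf w]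

theorem kp_of {A : Matrix n n K} (h : ∀ w, ∃ w', A * ρ w = ρ w' * A) : Kp ρ A := fun f hf w => by
  obtain ⟨w', hw⟩ := h w
  rw [← sub_mul, hw, sub_mul, hf w']

theorem Kp.smul {A : Matrix n n K} (h : Kp ρ A) (t : K) : Kp ρ (t • A) := by
  rw [← mul_one A, ← mul_smul_comm]
  exact h.mul (kp_of fun w => ⟨w, by rw [smul_mul_assoc, mul_smul_comm, one_mul, mul_one]⟩)

theorem repr_mul {r : MvPolynomial n K} (h : r ∈ Inv ρ) (x : MvPolynomial n K) (j : J) :
    (b.repr (r * x) j).1 = r * (b.repr x j).1 := by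
  have : r * x = (⟨r, h⟩ : Inv ρ) • x := rfl
  rw [this, map_smul]
  rfl

theorem sum_repr (x : MvPolynomial n K) : ∑ j, (b.repr x j).1 * b j = x := b.sum_repr x

theorem repr_sub {B : Matrix n n K} (hB : Kp ρ B) (x : MvPolynomial n K) (j : J) :
    (b.repr (sub B x) j).1 = ∑ i, sub B (b.repr x i).1 * (b.repr (sub B (b i)) j).1 := by
  conv_lhs => rw [← sum_repr b x]
  simp only [map_sum, map_sum, Finsupp.finsetSum_apply, AddSubmonoidClass.coe_finsetSum]
  exact Finset.sum_congr rfl fun i _ => by simp only [map_mul, repr_mul b (hB _ (b.repr x i).2)]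

theorem am_mul (A : Matrix n n K) {B : Matrix n n K} (hB : Kp ρ B) : am b (A * B) = am b A * am b B := by
  ext j j'
  rw [am, sub_mul, repr_sub b hB, map_sum, mul_apply]
  exact Finset.sum_congr rfl fun i _ => by simp only [map_mul, cc_sub, am, am]

theorem am_one : am b 1 = 1 := by
  ext j j'
  rw [am, sub_one, b.repr_self, one_apply, Finsupp.single_apply]
  split_ifs
  · exact map_one _
  · exact map_zero _

theorem cc_repr_of_mem {x : MvPolynomial n K} (h : x ∈ Id ρ) (j : J) : constantCoeff (b.repr x j).1 = 0 := by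
  have h1 : ∀ y, constantCoeff (b.repr (y * x) j).1 = 0 := by
    induction h using Submodule.span_induction with
    | mem f hf =>
      obtain ⟨h2, e, h3, h4⟩ := hf
      intro y
      rw [mul_comm, repr_mul b h2, map_mul, constantCoeff_eq, h4.coeff_eq_zero (by rw [map_zero]; omega), zero_mul]
    | zero => intro y; rw [mul_zero, map_zero]; exact map_zero _
    | add f g _ _ hf hg => intro y; rw [mul_add, map_add, Finsupp.add_apply, Subalgebra.coe_add, map_add, hf, hg, add_zero]
    | smul z f _ hf => intro y; rw [smul_eq_mul, ← mul_assoc]; exact hf _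
  simpa using h1 1

variable {b} (hb : ∀ j, b j = monomial (a j) 1)
include hb

theorem b_hom (j : J) : (b j).IsHomogeneous (a j).degree := hb j ▸ isHomogeneous_monomial _ rfl

theorem repr_hc (k : ℕ) (x : MvPolynomial n K) (j : J) :
    (b.repr (hc k x) j).1 = if (a j).degree ≤ k then hc (k - (a j).degree) (b.repr x j).1 else 0 := by
  have h1 : hc k x = ∑ i, (if (a i).degree ≤ k then (⟨_, hc_mem (b.repr x i).2 (k - (a i).degree)⟩ : Inv ρ) else 0) • b i := by
    conv_lhs => rw [← sum_repr b x]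
    rw [map_sum]
    refine Finset.sum_congr rfl fun i _ => ?_
    rw [hc_mul (b_hom hb i)]
    split_ifs
    · rfl
    · rw [zero_smul]
  rw [h1, b.repr_sum_self]
  split_ifs <;> rfl

theorem repr_diag (A : Matrix n n K) (j : J) : (b.repr (sub A (b j)) j).1 = C (am b A j j) := by
  have h := repr_hc hb (a j).degree (sub A (b j)) j
  simp only [homogeneousComponent_eq_self (sub_hom A (b_hom hb j)), if_pos le_rfl, Nat.sub_self, homogeneousComponent_zero] at h
  exact h

theorem am_ne (A : Matrix n n K) {j j' : J} (h : (a j).degree ≠ (a j').degree) : am b A j j' = 0 := by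
  have h1 := repr_hc hb (a j).degree (sub A (b j)) j'
  rw [homogeneousComponent_eq_self (sub_hom A (b_hom hb j))] at h1
  rw [am, h1]
  split_ifs with h2
  · rw [constantCoeff_eq, (homogeneousComponent_isHomogeneous _ _).coeff_eq_zero (by rw [map_zero]; omega)]
  · exact map_zero _

theorem am_smul (A : Matrix n n K) (t : K) (j j' : J) : am b (t • A) j j' = t ^ (a j).degree * am b A j j' := by
  have h1 : t • A = diagonal (fun _ => t) * A := smul_eq_diagonal_mul A t
  simp only [am, h1, sub_mul, hb, sub_diagonal, map_mul, sub_C, repr_mul b (r := C _) ((Inv ρ).algebraMap_mem _), map_mul,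
    constantCoeff_C, Finset.prod_pow_eq_pow_sum, ← Finsupp.degree_eq_sum, am, hb]

variable (ρ) in
omit hb in
/-- the invariants of degree `m` -/
noncomputable def Rk (m : ℕ) : Submodule K (MvPolynomial n K) := (Inv ρ).toSubmodule ⊓ homogeneousSubmodule n K m

omit hb in
instance instFdRk (m : ℕ) : FiniteDimensional K (Rk ρ m) := Submodule.finiteDimensional_of_le inf_le_right

omit hb in
/-- the trace on the invariants of degree `m` -/
noncomputable def tR {A : Matrix n n K} (h : Kp ρ A) (m : ℕ) : K :=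
  LinearMap.trace K (Rk ρ m) ((sub A).toLinearMap.restrict fun f hf => ⟨h f hf.1, sub_hom A hf.2⟩)

omit hb in
theorem tR_rho {A : Matrix n n K} (h : Kp ρ A) (w : W) : tR ((kp_rho w).mul h) = tR h := funext fun m => by
  refine congrArg _ (LinearMap.ext fun f => Subtype.ext ?_)
  change sub (ρ w * A) f.1 = sub A f.1
  rw [sub_mul, f.2.1 w]

theorem tk_eq {A : Matrix n n K} (h : Kp ρ A) (k : ℕ) :
    tk A k = ∑ j, if (a j).degree ≤ k then am b A j j * tR h (k - (a j).degree) else 0 := by
  rw [tk, trace_dec Finset.univ (fun j => Rk ρ (k - (a j).degree))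
    (fun j => ((hc k ∘ₗ LinearMap.mulRight K (b j)) ∘ₗ Submodule.subtype _).codRestrict _ fun _ => homogeneousComponent_mem _ _)
    (fun j => ((hc (k - (a j).degree) ∘ₗ (Inv ρ).val.toLinearMap ∘ₗ (b.coord j).restrictScalars K) ∘ₗ
      Submodule.subtype _).codRestrict _ fun x => ⟨hc_mem (b.repr x.1 j).2 _, homogeneousComponent_mem _ _⟩)
    fun x => Subtype.ext ?_]
  · refine Finset.sum_congr rfl fun j _ => ?_
    split_ifs with h1
    · simp only [tR, ← smul_eq_mul, ← map_smul]
      refine congrArg _ (LinearMap.ext fun r => Subtype.ext ?_)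
      change hc _ (b.repr (sub A (hc k (r.1 * b j))) j).1 = am b A j j • sub A r.1
      rw [hc_mul (b_hom hb j), if_pos h1, homogeneousComponent_eq_self r.2.2, map_mul, repr_mul b (h _ r.2.1), repr_diag hb,
        mul_comm, ← smul_eq_C_mul, map_smul, homogeneousComponent_eq_self (sub_hom A r.2.2)]
    · refine Eq.trans (congrArg _ (LinearMap.ext fun r => Subtype.ext ?_)) (map_zero _)
      change hc _ (b.repr (sub A (hc k (r.1 * b j))) j).1 = 0
      simp only [hc_mul (b_hom hb j), if_neg h1, map_zero, map_zero]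
      exact map_zero _
  · rw [Submodule.coe_sum]
    change ∑ j, hc k (hc (k - (a j).degree) (b.repr x.1 j).1 * b j) = x.1
    rw [← homogeneousComponent_eq_self x.2]
    conv_rhs => rw [← sum_repr b x.1]
    ((conv => enter [@3]; rw [map_sum]); simp +singlePass only [homogeneousComponent_eq_self x.2])
    refine Finset.sum_congr rfl fun j _ => ?_
    rw [hc_mul (b_hom hb j), hc_mul (b_hom hb j), homogeneousComponent_eq_self (homogeneousComponent_isHomogeneous _ _)]

variable (a b) in
omit hb in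
/-- the graded trace on the coinvariants -/
noncomputable def cA (A : Matrix n n K) : Polynomial K := ∑ j, Polynomial.monomial (a j).degree (am b A j j)

theorem eval_cA (A : Matrix n n K) (t : K) : (cA a b A).eval t = (am b (t • A)).trace := by
  rw [cA, Polynomial.eval_finsetSum]
  exact Finset.sum_congr rfl fun j _ => by rw [Polynomial.eval_monomial, diag_apply, am_smul hb, mul_comm]

theorem cA_mul [CharZero K] [IsAlgClosed K] {A : Matrix n n K} (h : Kp ρ A) (hs : Ss A) :
    ((cA a b A * A.charpolyRev : Polynomial K) : PowerSeries K) * PowerSeries.mk (tR h) = 1 := by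
  rw [← molien hs, Polynomial.coe_mul, mul_right_comm]
  congr 1
  ext k
  rw [PowerSeries.coeff_mk, tk_eq hb h, cA, ← Polynomial.coeToPowerSeries.ringHom_apply, map_sum, Finset.sum_mul, map_sum]
  refine Finset.sum_congr rfl fun j _ => ?_
  rw [← Polynomial.C_mul_X_pow_eq_monomial, Polynomial.coeToPowerSeries.ringHom_apply, Polynomial.coe_mul, Polynomial.coe_C,
    Polynomial.coe_pow, Polynomial.coe_X, mul_assoc, PowerSeries.coeff_C_mul, PowerSeries.coeff_X_pow_mul', mul_ite, mul_zero,
    PowerSeries.coeff_mk]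

theorem sum_cA [Fintype W] [CharZero K] (ha : Function.Injective a) {A : Matrix n n K} (h : Kp ρ A) :
    ∑ w, cA a b (ρ w * A) = Polynomial.C (Nat.card W : K) := by
  obtain ⟨j₀, h0⟩ : ∃ j, a j = 0 := by
    by_contra hn
    have h1 := congrArg constantCoeff (sum_repr b 1)
    rw [map_one constantCoeff, map_sum, Finset.sum_eq_zero fun j _ => by
      rw [map_mul, hb, constantCoeff_monomial, if_neg fun h => hn ⟨j, h⟩, mul_zero]] at h1
    exact zero_ne_one h1
  simp only [cA]
  rw [Finset.sum_comm, Finset.sum_eq_single j₀ (fun j _ hj => ?_) fun h => absurd (Finset.mem_univ _) h]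
  · have h1 : b j₀ = 1 := by rw [hb, h0]; rfl
    have h2 : ∀ B, am b B j₀ j₀ = 1 := fun B => by
      simp only [← one_apply_eq (α := K) j₀, ← am_one b, am, am, h1, map_one (sub B), map_one (sub 1)]
    simp only [h2, h0, map_zero, Polynomial.monomial_zero_one]
    rw [Finset.sum_const, Finset.card_univ, Nat.card_eq_fintype_card, nsmul_eq_mul, mul_one, map_natCast]
  · have h1 : 0 < (a j).degree := Nat.pos_of_ne_zero fun h2 => hj (ha (by rw [h0, (Finsupp.degree_eq_zero_iff _).1 h2]))
    have h2 := cc_repr_of_mem b (sub_mem_Id h (Ideal.mul_mem_left _ (C (Nat.card W : K))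
      (Ideal.subset_span ⟨av_mem (b j), _, h1, av_hom (b_hom hb j)⟩))) j
    rw [av_eq, ← mul_assoc, ← map_mul, mul_inv_cancel₀ card_ne, map_one, one_mul, map_sum, map_sum, Finsupp.finsetSum_apply,
      AddSubmonoidClass.coe_finsetSum, map_sum] at h2
    rw [← map_sum]
    simp only [am, sub_mul]
    rw [h2, map_zero]

/-- a substitution with a non-zero trace on the coinvariants has a fixed point on every stable orbit -/
theorem exists_fix [Finite W] [CharZero K] {g : Matrix n n K} (hg : Kp ρ g) (h0 : (am b g).trace ≠ 0) (v : n → K)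
    (hv : ∀ r ∈ Inv ρ, eval (g *ᵥ v) r = eval v r) : ∃ u, g *ᵥ (ρ u *ᵥ v) = ρ u *ᵥ v := by
  let m : MvPolynomial n K → Matrix J J K := fun f j j' => eval v (b.repr (f * b j) j').1
  let G : Matrix J J K := fun j j' => eval v (b.repr (sub g (b j)) j').1
  have h1 : ∀ (f x : MvPolynomial n K) j', (b.repr (f * x) j').1 = ∑ i, (b.repr x i).1 * (b.repr (f * b i) j').1 := by
    intro f x j'
    conv_lhs => rw [← sum_repr b x]
    simp only [Finset.mul_sum, map_sum, Finsupp.finsetSum_apply, AddSubmonoidClass.coe_finsetSum]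
    exact Finset.sum_congr rfl fun i _ => by ((conv => enter [@2, @3, @5, @6]; rw [mul_left_comm]); simp only [repr_mul b (b.repr x i).2])
  have h2 : ∀ f f', m (f * f') = m f' * m f := fun f f' => by
    ext j j'
    rw [mul_apply]
    simp only [m]
    (simp only [mul_assoc]; (conv => enter [@2, @6]; rw [h1]); (conv => enter [@2]; rw [map_sum]))
    simp only [map_mul]
  have h3 : ∀ f, m f * G = G * m (sub g f) := fun f => by
    ext j j'
    have h4 := repr_sub b hg (f * b j) j'
    (simp only [map_mul] at h4; (conv at h4 => enter [@2]; rw [h1]))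
    have h5 := congrArg (eval v) h4
    simp only [map_sum, map_mul, eval_sub, hv _ (Subtype.prop _)] at h5
    exact h5.symm
  have h4 : ∀ f f', m (f + f') = m f + m f' := fun f f' => by
    ext j j'
    rw [Matrix.add_apply]
    simp only [m, add_mul, map_add, Finsupp.add_apply, Subalgebra.coe_add]
  let I : Ideal (MvPolynomial n K) :=
    { carrier := {x | ∀ h, (G * m (h * x)).trace = 0}
      zero_mem' := fun h => by
        have : m 0 = 0 := by ext j j'; simp [m]
        rw [mul_zero, this, mul_zero, trace_zero]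
      add_mem' := fun {x y} hx hy h => by rw [mul_add, h4, mul_add, trace_add, hx, hy, add_zero]
      smul_mem' := fun z x hx h => by rw [smul_eq_mul, ← mul_assoc]; exact hx _ }
  obtain ⟨Q, hQ, hI⟩ := I.exists_le_maximal fun h => h0 (by
    have h5 := (I.eq_top_iff_one.1 h) 1
    rw [← h5, mul_one]
    have h6 : m 1 = 1 := by
      ext j j'
      simp only [m]
      rw [one_mul, b.repr_self, one_apply, Finsupp.single_apply]
      split_ifs
      · exact map_one _
      · exact map_zero _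
    rw [h6, mul_one]
    exact Finset.sum_congr rfl fun j _ => by rw [diag_apply, diag_apply]; simp only [G]; rw [repr_diag hb, eval_C])
  obtain ⟨u, hu⟩ := exists_conj v Q fun r hr => hI fun h => by
    have h5 : m (h * (r - C (eval v r))) = 0 := by
      ext j j'
      simp only [m]
      rw [mul_comm h, mul_assoc, repr_mul b (r := r - C _) (sub_mem hr ((Inv ρ).algebraMap_mem _)), map_mul, map_sub, eval_C,
        sub_self, zero_mul, Matrix.zero_apply]
    rw [h5, mul_zero, trace_zero]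
  refine ⟨u, funext fun i => ?_⟩
  have h5 := hu (X i - sub g (X i)) (hI fun h => by
    have h6 : (G * m (h * (X i - sub g (X i)))).trace + (G * m (h * sub g (X i))).trace = (G * m (h * X i)).trace := by
      rw [← trace_add, ← mul_add, ← h4, ← mul_add, sub_add_cancel]
    rw [h2 h (sub g _), ← mul_assoc, ← h3, mul_assoc, trace_mul_comm (m (X i)), mul_assoc, ← h2, mul_comm (X i)] at h6
    exact add_eq_right.1 h6)
  rw [map_sub, eval_sub, eval_X, eval_X, sub_eq_zero] at h5
  exact h5.symm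

end Cfsg.Agent.MO.Sp
end

-- part: MO/Sp/Main
section
/-!
# MO/Sp: the order polynomial, Springer's theorem, the reduction to the Levi coset (helper69)

* `Co.isP`, `IsP.eq`, `Co.eval_cf`, `Co.eval_dg`, `Co.cl_cf`;
* `Co.cf_ne_iff`, `Co.top_iff_rm`, `exists_top`, `Co.springer`, `Co.top_iff`;
* `qt ρ M ι w₁` : the quotient of the order polynomials of the coset and of a subcoset (`Co.ordP_eq`, `Co.cf_eq`, `Co.dg_ind`);
* `Co.qt_top`, `Co.qt_zero`, `Co.dg_top`.
-/

set_option autoImplicit false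
set_option linter.unusedSectionVars false

namespace Cfsg.Agent.MO.Sp

open Matrix Polynomial

variable {K : Type} [Field K] {n : Type} [Fintype n] [DecidableEq n] {W : Type} [Group W] {ρ : W →* Matrix n n K}
  {M : Matrix n n K} {U : Type} [Group U]

theorem rho_inv_mul (w : W) (v : n → K) : ρ w⁻¹ *ᵥ (ρ w *ᵥ v) = v := by
  rw [mulVec_mulVec, ← map_mul, inv_mul_cancel, map_one, one_mulVec]

theorem rho_mul_inv (w : W) (v : n → K) : ρ w *ᵥ (ρ w⁻¹ *ᵥ v) = v := by
  rw [mulVec_mulVec, ← map_mul, mul_inv_cancel, map_one, one_mulVec]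

theorem Tc.mem_iff {v w w' : W} (h : Tc ρ M v w w') {s : K} {x : n → K} :
    x ∈ Es (ρ w * M) s ↔ ρ v *ᵥ x ∈ Es (ρ w' * M) s := by
  rw [mem_Es, mem_Es, mulVec_mulVec, h, ← mulVec_mulVec x (ρ v), ← mulVec_smul]
  exact ⟨congrArg _, fun h1 => by simpa only [rho_inv_mul] using congrArg (ρ v⁻¹ *ᵥ ·) h1⟩

theorem Tc.crev {v w w' : W} (h : Tc ρ M v w w') : (ρ w * M).charpolyRev = (ρ w' * M).charpolyRev := by
  have h1 : ρ w' * M = ρ v * (ρ w * M * ρ v⁻¹) := by rw [← mul_assoc, ← h, mul_assoc, ← map_mul, mul_inv_cancel, map_one, mul_one]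
  rw [h1, crev_mul_comm (ρ v), mul_assoc, ← map_mul, inv_mul_cancel, map_one, mul_one]

theorem cl_cf : Cl ρ M (cf ρ M) := fun _ _ _ h => by rw [cf, cf, h.crev]

theorem le_Es_iff {s : K} (hs : s ≠ 0) {w₀ w : W} :
    Es (ρ w₀ * M) s ≤ Es (ρ w * M) s ↔ w * w₀⁻¹ ∈ Cn ρ (Es (ρ w₀ * M) s) := by
  have h1 : ∀ v ∈ Es (ρ w₀ * M) s, (ρ w * M) *ᵥ v = s • ρ (w * w₀⁻¹) *ᵥ v := fun v hv => by
    rw [← mulVec_smul, ← mem_Es.1 hv, mulVec_mulVec, ← mul_assoc, ← map_mul, inv_mul_cancel_right]
  exact ⟨fun h v hv => smul_right_injective _ hs ((h1 v hv).symm.trans (mem_Es.1 (h hv))),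
    fun h v hv => mem_Es.2 (by rw [h1 v hv, h v hv])⟩

theorem Top.eq_of_le {s : K} {w₀ w : W} (h0 : Top ρ M s w₀) (h : Es (ρ w₀ * M) s ≤ Es (ρ w * M) s) :
    Es (ρ w₀ * M) s = Es (ρ w * M) s := Submodule.eq_of_le_of_finrank_le h (h0 w)

theorem Top.mul {s : K} (hs : s ≠ 0) {w₀ x : W} (h0 : Top ρ M s w₀) (hx : x ∈ Cn ρ (Es (ρ w₀ * M) s)) :
    Es (ρ w₀ * M) s = Es (ρ (x * w₀) * M) s := h0.eq_of_le ((le_Es_iff hs).2 (by rwa [mul_inv_cancel_right]))

theorem comp_mul (ι : U →* W) (w₁ : W) (u : U) : ρ.comp ι u * (ρ w₁ * M) = ρ (ι u * w₁) * M := by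
  rw [MonoidHom.comp_apply, map_mul, mul_assoc]

theorem Co.pow_mem (h : Co ρ M) (w : W) (k : ℕ) : ∃ u, (ρ w * M) ^ k = ρ u * M ^ k := by
  induction k with
  | zero => exact ⟨1, by rw [pow_zero, pow_zero, map_one, one_mul]⟩
  | succ k ih =>
    obtain ⟨u, hu⟩ := ih
    obtain ⟨u', h1⟩ := h.nrm u
    exact ⟨w * u', by rw [pow_succ', hu, mul_assoc, ← mul_assoc M, h1, map_mul, pow_succ', mul_assoc, mul_assoc]⟩

theorem Co.exists_tc (h : Co ρ M) (v w : W) : ∃ w', Tc ρ M v w w' := by
  obtain ⟨u, hu⟩ := h.nrm v⁻¹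
  refine ⟨v * w * u, ?_⟩
  rw [Tc, map_mul, mul_assoc _ (ρ u), ← hu, mul_assoc, mul_assoc, ← map_mul, inv_mul_cancel, map_one, mul_one, map_mul,
    mul_assoc]

theorem Co.tc_unique (h : Co ρ M) {v w w' w'' : W} (h1 : Tc ρ M v w w') (h2 : Tc ρ M v w w'') : w' = w'' :=
  h.inj ((Ss.isUnit h.pw).mul_right_cancel (((Group.isUnit v).map ρ).mul_right_cancel (h1.trans h2.symm)))

theorem Co.tc_inj (h : Co ρ M) {v w w' w'' : W} (h1 : Tc ρ M v w w'') (h2 : Tc ρ M v w' w'') : w = w' :=
  h.inj ((Ss.isUnit h.pw).mul_right_cancel (((Group.isUnit v).map ρ).mul_left_cancel (h1.symm.trans h2)))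

variable [Finite W]

theorem exists_top (ρ : W →* Matrix n n K) (M : Matrix n n K) (s : K) : ∃ w, Top ρ M s w :=
  Finite.exists_max fun w => Module.finrank K (Es (ρ w * M) s)

theorem Co.ss (h : Co ρ M) (w : W) : Ss (ρ w * M) := by
  obtain ⟨d, c, h1, h2, h3⟩ := h.pw
  obtain ⟨u, hu⟩ := h.pow_mem w d
  refine ⟨d * Nat.card W, c ^ Nat.card W, Nat.mul_pos h1 Nat.card_pos, pow_ne_zero _ h2, ?_⟩
  rw [pow_mul, hu, h3, mul_smul_comm, mul_one, smul_pow, ← map_pow, pow_card_eq_one', map_one]

variable [CharZero K]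

theorem IsP.eq {P : K[X]} {c : W → K[X]} (h : IsP ρ M P c) : ordP ρ M = P ∧ cf ρ M = c := by
  have := Fintype.ofFinite W
  obtain ⟨c', h'⟩ : ∃ c', IsP ρ M (ordP ρ M) c' := Classical.epsilon_spec (p := fun P => ∃ c, IsP ρ M P c) ⟨P, c, h⟩
  have h1 : ordP ρ M = P := by
    refine mul_left_cancel₀ (C_ne_zero.2 (card_ne (K := K) (W := W))) ?_
    conv_lhs => rw [← h.sum]
    rw [← h'.sum, finsum_eq_sum_of_fintype, finsum_eq_sum_of_fintype, Finset.sum_mul, Finset.sum_mul]
    exact Finset.sum_congr rfl fun w _ => by rw [← h.mul w, ← h'.mul w, mul_left_comm]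
  exact ⟨h1, funext fun w => by rw [cf, h1, ← h.mul w, mul_div_cancel_right₀ _ (crev_ne _)]⟩

variable [IsAlgClosed K]

theorem Co.exists_rep (h : Co ρ M) : ∃ (J : Type) (_ : Fintype J) (_ : DecidableEq J) (a : J → n →₀ ℕ)
    (b : Module.Basis J (Inv ρ) (MvPolynomial n K)), (∀ j, b j = MvPolynomial.monomial (a j) 1) ∧
      IsP ρ M (ordP ρ M) (cf ρ M) ∧ ∀ w, cf ρ M w = cA a b (ρ w * M) := by
  classical
  obtain ⟨J, _, a, b, ha, hb⟩ := exists_basis h.gen
  have := Fintype.ofFinite J
  have := Fintype.ofFinite W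
  have hk := kp_of h.nrm
  have h1 : IsP ρ M (cA a b (ρ 1 * M) * (ρ 1 * M).charpolyRev) fun w => cA a b (ρ w * M) := by
    refine ⟨fun w => Polynomial.coe_injective K ?_, by rw [finsum_eq_sum_of_fintype, sum_cA hb ha hk]⟩
    have h2 := cA_mul hb ((kp_rho w).mul hk) (h.ss w)
    have h3 := cA_mul hb ((kp_rho 1).mul hk) (h.ss 1)
    rw [tR_rho hk] at h2 h3
    rw [← mul_one ((_ : K[X]) : PowerSeries K), ← h3, mul_left_comm, h2, mul_one]
  obtain ⟨h2, h3⟩ := h1.eq
  exact ⟨J, inferInstance, inferInstance, a, b, hb, by rw [h3, h2]; exact h1, fun w => congrFun h3 w⟩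

theorem Co.isP (h : Co ρ M) : IsP ρ M (ordP ρ M) (cf ρ M) := by
  obtain ⟨J, _, _, a, b, _, h1, _⟩ := h.exists_rep
  exact h1

theorem Co.eval_cf (h : Co ρ M) (w : W) (t : K) :
    (cf ρ M w).eval t * (1 - t • (ρ w * M)).det = (ordP ρ M).eval t := by rw [← eval_crev, ← eval_mul, h.isP.mul]

theorem Co.sum_eval (h : Co ρ M) (t : K) : ∑ᶠ w, (cf ρ M w).eval t = Nat.card W := by
  have := Fintype.ofFinite W
  have h1 := congrArg (eval t) h.isP.sum
  rwa [finsum_eq_sum_of_fintype, eval_finsetSum, eval_C, ← finsum_eq_sum_of_fintype] at h1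

omit [IsAlgClosed K] in
theorem eval_dg (y : W → K) (t : K) : (dg ρ M y).eval t = (Nat.card W : K)⁻¹ * ∑ᶠ w, y w * (cf ρ M w).eval t := by
  have := Fintype.ofFinite W
  rw [dg, finsum_eq_sum_of_fintype, finsum_eq_sum_of_fintype, eval_mul, eval_C, eval_finsetSum]
  simp only [eval_mul, eval_C]

theorem Co.dg_one (h : Co ρ M) : dg ρ M (fun _ => 1) = 1 := by
  simp only [dg, C_1, one_mul]
  rw [h.isP.sum, ← C_mul, inv_mul_cancel₀ card_ne, C_1]

theorem Co.eval_zero (h : Co ρ M) : (ordP ρ M).eval 0 = 1 := by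
  have := Fintype.ofFinite W
  have h1 := h.sum_eval 0
  have h2 : ∀ w, (cf ρ M w).eval 0 = (ordP ρ M).eval 0 := fun w => by
    rw [← h.eval_cf w, zero_smul, sub_zero, det_one, mul_one]
  simp only [h2] at h1
  rw [finsum_eq_sum_of_fintype, Finset.sum_const, Finset.card_univ, ← Nat.card_eq_fintype_card, nsmul_eq_mul] at h1
  exact mul_left_cancel₀ card_ne (h1.trans (mul_one _).symm)

theorem Co.ordP_ne (h : Co ρ M) : ordP ρ M ≠ 0 := fun h0 => by
  have := h.eval_zero
  rw [h0, Polynomial.eval_zero] at this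
  exact zero_ne_one this

theorem Co.cf_ne (h : Co ρ M) (w : W) : cf ρ M w ≠ 0 := fun h0 => h.ordP_ne (by rw [← h.isP.mul w, h0, zero_mul])

theorem Co.rm_eq (h : Co ρ M) {s : K} (hs : s ≠ 0) (w : W) :
    rootMultiplicity s⁻¹ (ordP ρ M) = rootMultiplicity s⁻¹ (cf ρ M w) + Module.finrank K (Es (ρ w * M) s) := by
  rw [(h.ss w).rk_eq hs, ← rootMultiplicity_mul (mul_ne_zero (h.cf_ne w) (crev_ne _)), h.isP.mul]

theorem Co.top_iff_rm (h : Co ρ M) {s : K} (hs : s ≠ 0) {w : W} :
    Top ρ M s w ↔ Module.finrank K (Es (ρ w * M) s) = rootMultiplicity s⁻¹ (ordP ρ M) := by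
  refine ⟨fun h1 => ?_, fun h1 w' => by have := h.rm_eq hs w'; omega⟩
  obtain ⟨w₁, h2⟩ : ∃ w₁, (cf ρ M w₁).eval s⁻¹ ≠ 0 := by
    by_contra hn
    push Not at hn
    have h2 := h.sum_eval s⁻¹
    simp only [hn, finsum_zero] at h2
    exact card_ne h2.symm
  have h3 := h.rm_eq hs w₁
  have h4 := h.rm_eq hs w
  have h5 := h1 w₁
  rw [rootMultiplicity_eq_zero h2] at h3
  omega

theorem Co.cf_ne_iff (h : Co ρ M) {s : K} (hs : s ≠ 0) {w : W} : (cf ρ M w).eval s⁻¹ ≠ 0 ↔ Top ρ M s w := by
  have h1 := h.rm_eq hs w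
  have h2 := rootMultiplicity_pos (h.cf_ne w) (x := s⁻¹)
  rw [h.top_iff_rm hs, Ne, ← IsRoot.def, ← h2]
  omega

/-- **Springer's theorem** -/
theorem Co.springer (h : Co ρ M) {s : K} (hs : s ≠ 0) {w₀ : W} (h0 : Top ρ M s w₀) (w : W) :
    ∃ u, ∀ v ∈ Es (ρ w * M) s, ρ u *ᵥ v ∈ Es (ρ w₀ * M) s := by
  obtain ⟨J, _, _, a, b, hb, _, h1⟩ := h.exists_rep
  have h2 := (h.cf_ne_iff hs).2 h0
  rw [h1, eval_cA hb] at h2
  obtain ⟨u, hu⟩ := Subspace.exists_eq_top_of_iUnion_eq_univ
    (p := fun u : W => ((Es (ρ w₀ * M) s).comap (toLin' (ρ u))).comap (Es (ρ w * M) s).subtype)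
    (Set.eq_univ_of_forall fun v => by
      obtain ⟨u, hu⟩ := exists_fix hb (((kp_rho w₀).mul (kp_of h.nrm)).smul s⁻¹) h2 v.1 fun r hr => by
        have h3 : (s⁻¹ • (ρ w₀ * M)) *ᵥ v.1 = ρ (w₀ * w⁻¹) *ᵥ v.1 := by
          rw [smul_mulVec, inv_smul_eq_iff₀ hs, ← mulVec_smul, ← mem_Es.1 v.2, mulVec_mulVec, ← mul_assoc, ← map_mul,
            inv_mul_cancel_right]
        rw [h3, ← eval_sub, hr]
      rw [smul_mulVec, inv_smul_eq_iff₀ hs] at hu
      exact Set.mem_iUnion.2 ⟨u, mem_Es.2 hu⟩)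
  exact ⟨u, fun v hv => (hu.ge (Submodule.mem_top (x := ⟨v, hv⟩)) :)⟩

theorem Co.rk_eq (h : Co ρ M) {s : K} (hs : s ≠ 0) {v w w' : W} (ht : Tc ρ M v w w') :
    Module.finrank K (Es (ρ w * M) s) = Module.finrank K (Es (ρ w' * M) s) := by
  rw [(h.ss w).rk_eq hs, (h.ss w').rk_eq hs, ht.crev]

/-- the elements with a largest eigenspace are the conjugates of the elements of the Levi coset -/
theorem Co.top_iff (h : Co ρ M) {s : K} (hs : s ≠ 0) {w₀ : W} (h0 : Top ρ M s w₀) {w : W} :
    Top ρ M s w ↔ ∃ u x, x ∈ Cn ρ (Es (ρ w₀ * M) s) ∧ Tc ρ M u w (x * w₀) := by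
  refine ⟨fun h1 => ?_, fun ⟨u, x, hx, ht⟩ w' => by rw [h.rk_eq hs ht, ← h0.mul hs hx]; exact h0 w'⟩
  obtain ⟨u, hu⟩ := h.springer hs h0 w
  obtain ⟨w', ht⟩ := h.exists_tc u w
  refine ⟨u, w' * w₀⁻¹, (le_Es_iff hs).1 (Submodule.eq_of_le_of_finrank_le (fun v hv => ?_) ?_).ge,
    by rwa [inv_mul_cancel_right]⟩
  · rw [← rho_mul_inv (ρ := ρ) u v] at hv ⊢
    exact hu _ (ht.mem_iff.2 hv)
  · rw [← h.rk_eq hs ht]
    exact h1 w₀

theorem Co.sum_top (h : Co ρ M) {s : K} (hs : s ≠ 0) {w₀ : W} (h0 : Top ρ M s w₀) (ι : U →* W) (hι : Function.Injective ι)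
    (hr : ι.range = Cn ρ (Es (ρ w₀ * M) s)) {f : W → K} (hf : Cl ρ M f) (hz : ∀ w, ¬ Top ρ M s w → f w = 0) :
    Nat.card (Nm ρ (Es (ρ w₀ * M) s)) * ∑ᶠ w, f w = Nat.card W * ∑ᶠ u, f (ι u * w₀) := by
  classical
  have := Fintype.ofFinite W
  have := Finite.of_injective ι hι
  have := Fintype.ofFinite U
  choose tw ht using h.exists_tc
  have h1 : ∀ v w, tw v w * w₀⁻¹ ∈ Cn ρ (Es (ρ w₀ * M) s) ↔ ∀ x, x ∈ Es (ρ w * M) s ↔ ρ v *ᵥ x ∈ Es (ρ w₀ * M) s := by
    intro v w
    rw [← le_Es_iff hs]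
    refine ⟨fun h2 x => by rw [h0.eq_of_le h2, (ht v w).mem_iff], fun h2 x hx => ?_⟩
    rw [← rho_mul_inv (ρ := ρ) v x] at hx ⊢
    exact (ht v w).mem_iff.1 ((h2 _).2 hx)
  have h2 : ∀ v, ∑ w, (if tw v w * w₀⁻¹ ∈ Cn ρ (Es (ρ w₀ * M) s) then f w else 0) = ∑ u, f (ι u * w₀) := fun v => by
    rw [Fintype.sum_bijective (tw v) (Finite.injective_iff_bijective.1 fun w w' e => h.tc_inj (ht v w) (e ▸ ht v w')) _
      (fun w => if w * w₀⁻¹ ∈ Cn ρ (Es (ρ w₀ * M) s) then f w else 0) fun w => by rw [hf _ _ _ (ht v w)], ← Finset.sum_filter]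
    refine (Finset.sum_bij (fun u _ => ι u * w₀) (fun u _ => ?_) (fun u _ u' _ e => hι (mul_right_cancel e))
      (fun w hw => ?_) fun _ _ => rfl).symm
    · rw [Finset.mem_filter, mul_inv_cancel_right, ← hr]
      exact ⟨Finset.mem_univ _, u, rfl⟩
    · rw [Finset.mem_filter, ← hr] at hw
      obtain ⟨u, hu⟩ := hw.2
      exact ⟨u, Finset.mem_univ _, by rw [hu, inv_mul_cancel_right]⟩
  have h3 : ∀ w, ∑ v, (if tw v w * w₀⁻¹ ∈ Cn ρ (Es (ρ w₀ * M) s) then f w else 0) =
      Nat.card (Nm ρ (Es (ρ w₀ * M) s)) * f w := fun w => by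
    by_cases h4 : Top ρ M s w
    swap
    · simp [hz w h4]
    obtain ⟨u, x, hx, hu⟩ := (h.top_iff hs h0).1 h4
    have h5 := (h1 u w).1 (by rwa [h.tc_unique (ht u w) hu, mul_inv_cancel_right])
    rw [← Finset.sum_filter, Finset.sum_const, nsmul_eq_mul, Nat.card_eq_fintype_card, Fintype.card_subtype]
    congr 2
    refine Finset.card_bijective (Equiv.mulRight u⁻¹) (Equiv.bijective _) fun v => ?_
    simp only [Finset.mem_filter, Finset.mem_univ, true_and, Equiv.coe_mulRight, h1, mem_Nm, h5, map_mul, ← mulVec_mulVec]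
    exact ⟨fun h6 y => by rw [← h6, rho_mul_inv], fun h6 y => by rw [h6, rho_inv_mul]⟩
  rw [finsum_eq_sum_of_fintype, finsum_eq_sum_of_fintype, Finset.mul_sum, ← Finset.sum_congr rfl fun w _ => h3 w,
    Finset.sum_comm, Finset.sum_congr rfl fun v _ => h2 v, Finset.sum_const, Finset.card_univ, nsmul_eq_mul,
    Nat.card_eq_fintype_card]

variable [Finite U]

variable (ρ M) in
/-- the quotient of the order polynomials of the coset and of the subcoset `ι(U) w₁` -/
noncomputable def qt (ι : U →* W) (w₁ : W) : K[X] := C (Nat.card U : K)⁻¹ * ∑ᶠ u, cf ρ M (ι u * w₁)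

omit [IsAlgClosed K] in
theorem eval_qt (ι : U →* W) (w₁ : W) (t : K) :
    (qt ρ M ι w₁).eval t = (Nat.card U : K)⁻¹ * ∑ᶠ u, (cf ρ M (ι u * w₁)).eval t := by
  have := Fintype.ofFinite U
  rw [qt, finsum_eq_sum_of_fintype, finsum_eq_sum_of_fintype, eval_mul, eval_C, eval_finsetSum]

variable {ι : U →* W} {w₁ : W}

theorem Co.ordP_eq (h : Co ρ M) (h' : Co (ρ.comp ι) (ρ w₁ * M)) : ordP ρ M = qt ρ M ι w₁ * ordP (ρ.comp ι) (ρ w₁ * M) := by
  have := Fintype.ofFinite U
  refine mul_left_cancel₀ (C_ne_zero.2 (card_ne (K := K) (W := U))) ?_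
  rw [qt, ← mul_assoc, ← mul_assoc, ← C_mul, mul_inv_cancel₀ card_ne, C_1, one_mul, ← h'.isP.sum, finsum_eq_sum_of_fintype,
    finsum_eq_sum_of_fintype, Finset.sum_mul, Finset.sum_mul]
  exact Finset.sum_congr rfl fun u _ => by rw [← h'.isP.mul u, ← h.isP.mul (ι u * w₁), comp_mul, mul_left_comm]

theorem Co.cf_eq (h : Co ρ M) (h' : Co (ρ.comp ι) (ρ w₁ * M)) (u : U) :
    cf ρ M (ι u * w₁) = qt ρ M ι w₁ * cf (ρ.comp ι) (ρ w₁ * M) u :=
  mul_right_cancel₀ (crev_ne (ρ (ι u * w₁) * M)) (by rw [h.isP.mul, h.ordP_eq h', ← h'.isP.mul u, comp_mul, mul_assoc])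

variable (ρ M ι w₁) in
/-- `Y` is induced from the function `y` on the subcoset -/
def Ind (y : U → K) (Y : W → K) : Prop :=
  ∀ f : W → K, Cl ρ M f → (Nat.card W : K)⁻¹ * ∑ᶠ w, Y w * f w = (Nat.card U : K)⁻¹ * ∑ᶠ u, y u * f (ι u * w₁)

theorem Co.dg_ind (h : Co ρ M) (h' : Co (ρ.comp ι) (ρ w₁ * M)) {y : U → K} {Y : W → K} (hy : Ind ρ M ι w₁ y Y) :
    dg ρ M Y = qt ρ M ι w₁ * dg (ρ.comp ι) (ρ w₁ * M) y := Polynomial.funext fun t => by
  have := Fintype.ofFinite U
  rw [eval_mul, eval_dg, eval_dg, hy _ fun v w w' ht => by rw [cl_cf v w w' ht], mul_left_comm, finsum_eq_sum_of_fintype,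
    finsum_eq_sum_of_fintype, Finset.mul_sum Finset.univ _ (eval _ _)]
  exact congrArg _ (Finset.sum_congr rfl fun u _ => by rw [h.cf_eq h', eval_mul, mul_left_comm])

/-- a subcoset of smaller rank -/
theorem Co.qt_zero (h : Co ρ M) {s : K} (hs : s ≠ 0) (hn : ∀ u, ¬ Top ρ M s (ι u * w₁)) : (qt ρ M ι w₁).eval s⁻¹ = 0 := by
  have h1 : ∀ u, (cf ρ M (ι u * w₁)).eval s⁻¹ = 0 := fun u => not_not.1 fun h1 => hn u ((h.cf_ne_iff hs).1 h1)
  simp only [eval_qt, h1, finsum_zero, mul_zero]

theorem cn_le_nm (E : Submodule K (n → K)) : Cn ρ E ≤ Nm ρ E := fun u hu v =>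
  ⟨fun h => by rwa [hu v h], fun h => by rwa [← rho_inv_mul (ρ := ρ) u v, (Cn ρ E).inv_mem hu _ h]⟩

/-- the order of the relative Weyl group -/
theorem Co.qt_top (h : Co ρ M) {s : K} (hs : s ≠ 0) (h0 : Top ρ M s w₁) (hι : Function.Injective ι)
    (hr : ι.range = Cn ρ (Es (ρ w₁ * M) s)) :
    (qt ρ M ι w₁).eval s⁻¹ = (Cn ρ (Es (ρ w₁ * M) s)).relIndex (Nm ρ (Es (ρ w₁ * M) s)) := by
  have h1 := h.sum_top hs h0 ι hι hr (f := fun w => (cf ρ M w).eval s⁻¹) (fun v w w' ht => congrArg _ (cl_cf v w w' ht))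
    fun w hw => not_not.1 fun h1 => hw ((h.cf_ne_iff hs).1 h1)
  rw [h.sum_eval, mul_comm] at h1
  rw [eval_qt, ← mul_left_cancel₀ card_ne h1, inv_mul_eq_iff_eq_mul₀ card_ne, ← Nat.cast_mul, Subgroup.relIndex,
    ← Subgroup.card_mul_index ((Cn ρ _).subgroupOf _), Nat.card_congr (Subgroup.subgroupOfEquivOfLe (cn_le_nm _)).toEquiv, ← hr,
    Nat.card_congr (MonoidHom.ofInjective hι).toEquiv]

/-- **the reduction to the Levi coset** -/
theorem Co.dg_top (h : Co ρ M) (h' : Co (ρ.comp ι) (ρ w₁ * M)) {s : K} (hs : s ≠ 0) (h0 : Top ρ M s w₁)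
    (hr : ι.range = Cn ρ (Es (ρ w₁ * M) s)) {y : W → K} (hy : Cl ρ M y) :
    (dg ρ M y).eval s⁻¹ = (dg (ρ.comp ι) (ρ w₁ * M) fun u => y (ι u * w₁)).eval s⁻¹ := by
  have := Fintype.ofFinite U
  have hι : Function.Injective ι := Function.Injective.of_comp (f := ρ) h'.inj
  have h1 : ∀ y : W → K, Cl ρ M y → Nat.card (Nm ρ (Es (ρ w₁ * M) s)) * (dg ρ M y).eval s⁻¹ =
      Nat.card U * (qt ρ M ι w₁).eval s⁻¹ * (dg (ρ.comp ι) (ρ w₁ * M) fun u => y (ι u * w₁)).eval s⁻¹ := fun y hy => by
    have h2 := h.sum_top hs h0 ι hι hr (f := fun w => y w * (cf ρ M w).eval s⁻¹)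
      (fun v w w' ht => congrArg₂ _ (hy v w w' ht) (congrArg _ (cl_cf v w w' ht)))
      fun w hw => by rw [not_not.1 fun h1 => hw ((h.cf_ne_iff hs).1 h1), mul_zero]
    rw [eval_dg, eval_dg, mul_left_comm, h2, inv_mul_cancel_left₀ card_ne, mul_assoc, mul_left_comm (eval _ _),
      mul_inv_cancel_left₀ card_ne, finsum_eq_sum_of_fintype, finsum_eq_sum_of_fintype, Finset.mul_sum]
    exact Finset.sum_congr rfl fun u _ => by rw [h.cf_eq h', eval_mul, mul_left_comm]
  have h2 := h1 (fun _ => 1) fun _ _ _ _ => rfl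
  rw [h.dg_one, h'.dg_one, eval_one, mul_one, mul_one] at h2
  exact mul_left_cancel₀ card_ne (by rw [h1 y hy, ← h2])

end Cfsg.Agent.MO.Sp
end

private theorem dce_e8e4b8fc0a93 : _root_.True := by
  try have : _root_.True := by simp only [_root_.Cfsg.Agent.MO.Sp.qt.eq_1]
  try have : _root_.True := by simp only [_root_.Cfsg.Agent.MO.Sp.Tc.eq_1]
  try have : _root_.True := by simp only [_root_.Cfsg.Agent.MO.Sp.tR.congr_simp]
  try have : _root_.True := by simp only [_root_.Cfsg.Agent.MO.Sp.tk.eq_1]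
  try have : _root_.True := by simp only [_root_.Cfsg.Agent.MO.Sp.tR.eq_1]
  try have : _root_.True := by simp only [_root_.Cfsg.Agent.MO.Sp.cA.eq_1]
  try have : _root_.True := by simp only [_root_.Cfsg.Agent.MO.Sp.dg.eq_1]
  try have : _root_.True := by simp only [_root_.Cfsg.Agent.MO.Sp.cf.eq_1]
  try have : _root_.True := by simp only [_root_.Cfsg.Agent.MO.Sp.sub.eq_1]
  try have : _root_.True := by simp only [_root_.Cfsg.Agent.MO.Sp.am.eq_1]
  try have : _root_.True := by simp only [_root_.Cfsg.Agent.MO.Sp.av.eq_1]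
  exact _root_.True.intro
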